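import Mathlib
import Cfsg.Agent.S4035
import Cfsg.Agent.Lib.Helper67.SylowLemmas
import Cfsg.Agent.Lib.Helper79.CS3.EndDefs
import Cfsg.Agent.Lib.Helper41.CS3.GoodDefs
import Cfsg.Agent.Lib.Helper1.CS3.EndE0
import Cfsg.Agent.Lib.Helper1.CS3.EndI1
import Cfsg.Agent.Lib.Helper1.CS3.EndE7

/-!
# CS3 (S4284), part GOOD: package [G1]

`C(a) = Sa × N` for a good element `a` (S4035 applied to the group `↥(C(a))`).
-/

set_option autoImplicit false

namespace Cfsg.Agent.Lib.Helper1.CS3

open Cfsg.Agent.Lib.Helper81.CS3 Cfsg.Agent.Lib.Helper41.CS3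

universe u

/-- the centralizer of `x` inside a subgroup `H` -/
theorem centralizer_subtype_eq {G : Type u} [Group G] (H : Subgroup G) (x : ↥H) :
    Subgroup.centralizer ({x} : Set ↥H) = (Cn (x : G)).subgroupOf H := by
  ext z
  rw [mem_cent_single, Subgroup.mem_subgroupOf, mem_cent_single]
  constructor
  · intro h
    exact congrArg Subtype.val h
  · intro h
    exact Subtype.ext h

/-- [G1] -/
theorem pkgG1_of (hB4 : Cfsg.Agent.Lib.Helper79.CS3.PkgB4.{u}) : PkgG1.{u} := by
  intro G _ _ m n hyp s a hgood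
  have hs := hgood.sp
  have hfs : Fact s.Prime := ⟨hs⟩
  obtain ⟨k, hk⟩ := hgood.prim
  have hixa : (Subgroup.centralizer ({a} : Set G)).index = m := hgood.ixa
  have hsn : ¬ s ∣ n := by
    intro h
    have := Nat.dvd_gcd hgood.sm h
    rw [hyp.2.2.2.1.gcd_eq_one] at this
    exact hs.one_lt.ne' (Nat.dvd_one.mp this)
  have hB : ∀ y : G, y ∈ Cn a → (orderOf y).Coprime s →
      (Cn y).relIndex (Cn a) = 1 ∨ (Cn y).relIndex (Cn a) = n := by
    intro y hy hcop
    apply hB4 m n hyp a y hixa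
    · exact ((mem_cent_single a y).mp hy).symm
    · rw [hk]
      exact (hcop.pow_right k).symm
  have h35 : ∀ x : ↥(Cn a), (orderOf x).Coprime s →
      ¬ s ∣ (ConjClasses.mk x).carrier.ncard := by
    intro x hx
    rw [Cfsg.Agent.Lib.Helper67.ncard_conjClasses_carrier, centralizer_subtype_eq (Cn a) x]
    have hx' : (orderOf (x : G)).Coprime s := by rwa [Subgroup.orderOf_coe]
    show ¬ s ∣ (Cn (x : G)).relIndex (Cn a)
    rcases hB x x.2 hx' with h | h
    · rw [h]
      exact fun h1 => hs.one_lt.ne' (Nat.dvd_one.mp h1)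
    · rw [h]
      exact hsn
  obtain ⟨P⟩ : Nonempty (Sylow s ↥(Cn a)) := inferInstance
  obtain ⟨hPn, K, hKn, hKs, hPK, hPKsup⟩ := Cfsg.Agent.S4035.result h35 P
  have hcomm : ∀ x ∈ (P : Subgroup ↥(Cn a)), ∀ y ∈ K, x * y = y * x := fun x hx y hy =>
    Subgroup.commute_of_normal_of_disjoint (P : Subgroup ↥(Cn a)) K hPn hKn
      (disjoint_iff.mpr hPK) x y hx hy
  have hKcop : (Nat.card K).Coprime s := ((Nat.Prime.coprime_iff_not_dvd hs).mpr hKs).symm
  refine ⟨(P : Subgroup ↥(Cn a)).map (Cn a).subtype, K.map (Cn a).subtype, ?_, ?_, ?_, ?_, ?_⟩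
  · rintro _ ⟨x, hx, rfl⟩ _ ⟨y, hy, rfl⟩
    exact congrArg Subtype.val (hcomm x hx y hy)
  · rw [← Subgroup.map_sup, hPKsup, ← MonoidHom.range_eq_map, Subgroup.range_subtype]
  · exact P.isPGroup'.map _
  · rw [Subgroup.card_map_of_injective (Subgroup.subtype_injective _)]
    exact hKcop
  · rintro _ ⟨y, hy, rfl⟩
    have hyo : (orderOf (y : G)).Coprime s := by
      have h1 : orderOf (y : G) ∣ Nat.card K := by
        rw [Subgroup.orderOf_coe]
        exact Subgroup.orderOf_dvd_natCard K hy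
      exact Nat.Coprime.coprime_dvd_left h1 hKcop
    have hBy := hB y y.2 hyo
    have hPle : (P : Subgroup ↥(Cn a)) ≤ (Cn (y : G)).subgroupOf (Cn a) := by
      intro x hx
      rw [Subgroup.mem_subgroupOf, mem_cent_single]
      exact congrArg Subtype.val (hcomm x hx y hy)
    have e1 := relIndex_eq_index_of_compl (P : Subgroup ↥(Cn a)) K
      ((Cn (y : G)).subgroupOf (Cn a)) hPK hPKsup hPle
    have e2 : ((Cn (y : G)).subgroupOf (Cn a)).relIndex K =
        (Cn (y : G)).relIndex (K.map (Cn a).subtype) := by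
      have hK : (K.map (Cn a).subtype).subgroupOf (Cn a) = K :=
        Subgroup.comap_map_eq_self_of_injective (Subgroup.subtype_injective _) K
      have h := Subgroup.relIndex_subgroupOf (H := Cn (y : G)) (K := K.map (Cn a).subtype)
        (L := Cn a) (Subgroup.map_subtype_le K)
      rw [hK] at h
      exact h
    have e3 : ((Cn (y : G)).subgroupOf (Cn a)).index = (Cn (y : G)).relIndex (Cn a) := rfl
    have e4 := card_inf_mul_relIndex (Cn (y : G)) (K.map (Cn a).subtype)
    rw [← e2, e1, e3] at e4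
    rcases hBy with h | h
    · left
      rw [h, mul_one] at e4
      exact e4.symm
    · right
      rw [h] at e4
      rw [mul_comm]
      exact e4.symm

end Cfsg.Agent.Lib.Helper1.CS3
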